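import Cfsg.Agent.GH.L2AutOut
import Cfsg.Agent.S0262
import Cfsg.Agent.S0243
import Cfsg.Agent.LieRecognition.FieldSemilinear
import Cfsg.Agent.StandardComponent.AltAut

/-!
# A contradiction in the automorphism groups of `PSL₂(q)` and `A₇` (helper51, task 790)

A finite group `H` with elementary abelian Sylow `p`-subgroup (`p` odd) of order `a ^ 2`, `a ≡ ± 1 mod 8`, has no
homomorphism to `Aut(PSL₂(q))` (`q ≡ 7, 9 mod 16`) or `Aut(A₇)` with image containing the inner automorphisms and
with kernel of order prime to `p`.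
-/

set_option autoImplicit false

namespace Cfsg.Agent.H51.OddSeven

open Matrix Cfsg.Agent.GH Cfsg.Agent.GH.L2Aut Cfsg.Agent.Lib.SL2Mat Cfsg.Agent.Lib.AutSL2 Cfsg.Agent.Lib.AutSL2Out

/-- Moving a `p`-subgroup of the image of `f` into the image of a given Sylow `p`-subgroup. -/
theorem exists_conj {H A : Type*} [Group H] [Finite H] [Group A] {p : ℕ} [Fact p.Prime] (P : Sylow p H)
    (f : H →* A) (S : Subgroup A) (hS : IsPGroup p S) (hle : S ≤ f.range) :
    ∃ h : H, S ≤ ((P : Subgroup H).map (MulAut.conj h).toMonoidHom).map f := by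
  let M : Subgroup H := S.comap f
  obtain ⟨T⟩ : Nonempty (Sylow p M) := inferInstance
  have hT1 : IsPGroup p ((T : Subgroup M).map M.subtype) := T.isPGroup'.map _
  obtain ⟨Q, hQ⟩ := hT1.exists_le_sylow
  obtain ⟨h, hh⟩ := MulAction.exists_smul_eq H P Q
  refine ⟨h, ?_⟩
  -- the image of `T` is `S`
  let g : M →* S := (f.comp M.subtype).codRestrict S (fun x => x.2)
  have hg : Function.Surjective g := by
    rintro ⟨s, hs⟩
    obtain ⟨x, rfl⟩ := hle hs
    exact ⟨⟨x, hs⟩, rfl⟩
  have hTS : (T : Subgroup M).map g = ⊤ := by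
    have h1 : ((T.mapSurjective hg : Sylow p S) : Subgroup S) = (T : Subgroup M).map g := Sylow.coe_mapSurjective hg T
    rw [← h1]
    have : Finite S := Finite.of_surjective g hg
    have h2 : IsPGroup p (⊤ : Subgroup S) := hS.of_equiv Subgroup.topEquiv.symm
    exact (T.mapSurjective hg).3 h2 le_top |>.symm
  intro s hs
  have h3 : (⟨s, hs⟩ : S) ∈ (T : Subgroup M).map g := by rw [hTS]; trivial
  obtain ⟨t, ht, hts⟩ := h3
  have h4 : f (t : H) = s := congrArg Subtype.val hts
  have h5 : (t : H) ∈ (Q : Subgroup H) := hQ ⟨t, ht, rfl⟩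
  rw [← hh] at h5
  exact ⟨t, h5, h4⟩

theorem card_psl_two {F : Type*} [Field F] [Fintype F] (hodd : Odd (Fintype.card F)) :
    2 * Nat.card (Matrix.ProjectiveSpecialLinearGroup (Fin 2) F) =
      Fintype.card F * (Fintype.card F ^ 2 - 1) := by
  have h := Cfsg.Agent.S0243.result (F := F) rfl 2 le_rfl
  have hq : 1 < Fintype.card F := Fintype.one_lt_card
  set q := Fintype.card F with hq'
  have h2 : Nat.gcd 2 (q - 1) = 2 := by
    refine Nat.gcd_eq_left ?_
    obtain ⟨k, hk⟩ := hodd
    rw [hk]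
    exact ⟨k, by omega⟩
  rw [h2, Fin.prod_univ_two] at h
  have e : q ^ 2 - q ^ ((1 : Fin 2) : ℕ) = q * (q - 1) := by
    change q ^ 2 - q ^ 1 = q * (q - 1)
    rw [pow_one, pow_two, Nat.mul_sub, mul_one]
  rw [e, show q ^ ((0 : Fin 2) : ℕ) = 1 from pow_zero q] at h
  have h3 : (q - 1) * (2 * Nat.card (Matrix.ProjectiveSpecialLinearGroup (Fin 2) F)) = (q - 1) * (q * (q ^ 2 - 1)) := by
    calc _ = 2 * ((q - 1) * Nat.card (Matrix.ProjectiveSpecialLinearGroup (Fin 2) F)) := by ring
      _ = (q ^ 2 - 1) * (q * (q - 1)) := h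
      _ = _ := by ring
  exact Nat.eq_of_mul_eq_mul_left (by omega) h3

theorem card_fixed {F : Type*} [Field F] [Finite F] (τ : F ≃+* F) :
    ∃ r : ℕ, Nat.card F = r ^ orderOf τ := by
  have : Finite (F ≃+* F) := Finite.of_injective (fun f : F ≃+* F => (f : F → F)) DFunLike.coe_injective
  have := Fintype.ofFinite (Subgroup.zpowers τ)
  refine ⟨Nat.card (FixedPoints.subfield (Subgroup.zpowers τ) F), ?_⟩
  rw [← Nat.card_zpowers, Nat.card_eq_fintype_card (α := Subgroup.zpowers τ),
    ← FixedPoints.finrank_eq_card (Subgroup.zpowers τ) F]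
  exact Module.natCard_eq_pow_finrank

/-- lifting the exponent -/
theorem sq_dvd {p r : ℕ} (hp : p.Prime) (h : p ∣ (r ^ p) ^ 2 - 1) : p ^ 2 ∣ (r ^ p) ^ 2 - 1 := by
  have : Fact p.Prime := ⟨hp⟩
  rcases Nat.eq_zero_or_pos r with rfl | hr
  · rw [zero_pow hp.ne_zero]; simp
  have h1 : 1 ≤ (r ^ p) ^ 2 := Nat.one_le_pow _ _ (Nat.pow_pos hr)
  have h2 : ((r : ZMod p) ^ p) ^ 2 = 1 := by
    have h3 : (((r ^ p) ^ 2 - 1 : ℕ) : ZMod p) = 0 := (ZMod.natCast_eq_zero_iff _ _).2 h
    rw [Nat.cast_sub h1] at h3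
    push_cast at h3
    exact sub_eq_zero.1 h3
  rw [ZMod.pow_card] at h2
  have h4 : (p : ℤ) ∣ (r : ℤ) ^ 2 - 1 := by
    rw [← ZMod.intCast_zmod_eq_zero_iff_dvd]
    push_cast
    rw [h2, sub_self]
  have h5 : (p : ℤ) ^ 2 ∣ ((r : ℤ) ^ 2) ^ p - 1 ^ p := by
    have h6 := dvd_sub_pow_of_dvd_sub (R := ℤ) (p := p) (a := (r : ℤ) ^ 2) (b := 1) h4 1
    rwa [pow_one] at h6
  have h7 : ((p ^ 2 : ℕ) : ℤ) ∣ (((r ^ p) ^ 2 - 1 : ℕ) : ℤ) := by
    rw [Nat.cast_sub h1]
    push_cast
    rw [one_pow, ← pow_mul, mul_comm 2 p, pow_mul] at h5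
    exact h5
  exact_mod_cast h7

section

variable {F : Type*} [Field F] [Finite F] {L : Type*} [Group L] (R : L2Aut.Rep F L)

/-- An automorphism commuting with the root group. -/
theorem eq_up {x : MulAut L} (hx : ∀ t : F, x (R.π (up t)) = R.π (up t)) :
    ∃ b : F, x = R.gl (Matrix.SpecialLinearGroup.toGL (up b)) := by
  obtain ⟨g, hg⟩ := R.exists_eq x
  set σ := R.fld x with hσ
  have h1 : ∀ t : F, ∃ ε : F, (ε = 1 ∨ ε = -1) ∧ g.1 * (up (σ t)).1 = ε • ((up t).1 * g.1) := by
    intro t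
    have h2 := hx t
    rw [hg, MulAut.mul_apply, R.fa_apply, R.gl_apply, fieldAut_up, R.π_eq_iff] at h2
    have h3 : ∀ (m : Matrix (Fin 2) (Fin 2) F), g.1 * (up (σ t)).1 * g⁻¹.1 = m →
        g.1 * (up (σ t)).1 = m * g.1 := by
      intro m hm
      rw [← hm, Matrix.mul_assoc, ← Units.val_mul, inv_mul_cancel, Units.val_one, Matrix.mul_one]
    rcases h2 with h2 | h2
    · refine ⟨1, Or.inl rfl, ?_⟩
      rw [one_smul]
      exact h3 _ (by rw [← conjGL_val, h2])
    · refine ⟨-1, Or.inr rfl, ?_⟩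
      rw [neg_one_smul, ← Matrix.neg_mul]
      apply h3
      rw [← conjGL_val, h2]
      rfl
  have hdet : g.1 0 0 * g.1 1 1 - g.1 0 1 * g.1 1 0 ≠ 0 := by
    rw [← Matrix.det_fin_two]
    exact (Matrix.GeneralLinearGroup.det g).ne_zero
  have h2 : ∀ t : F, g.1 1 0 = 0 ∧ g.1 0 0 * σ t = t * g.1 1 1 := by
    intro t
    obtain ⟨ε, hε, h⟩ := h1 t
    have e00 := congrFun (congrFun h 0) 0
    have e01 := congrFun (congrFun h 0) 1
    have e10 := congrFun (congrFun h 1) 0
    have e11 := congrFun (congrFun h 1) 1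
    simp only [Matrix.smul_apply, Matrix.mul_apply, Fin.sum_univ_two, up, mk, smul_eq_mul, Matrix.of_apply,
      Matrix.cons_val', Matrix.cons_val_zero, Matrix.cons_val_one, Matrix.cons_val_fin_one, Matrix.empty_val'] at e00 e01 e10 e11
    rcases hε with rfl | rfl
    · by_cases ht : t = 0
      · subst ht
        simp only [map_zero, mul_zero, zero_mul] at e00 e01 e10 e11 ⊢
        obtain ⟨ε, hε, h⟩ := h1 1
        have f00 := congrFun (congrFun h 0) 0
        have f10 := congrFun (congrFun h 1) 0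
        simp only [Matrix.smul_apply, Matrix.mul_apply, Fin.sum_univ_two, up, mk, smul_eq_mul, Matrix.of_apply,
          Matrix.cons_val', Matrix.cons_val_zero, Matrix.cons_val_one, Matrix.cons_val_fin_one, Matrix.empty_val'] at f00 f10
        refine ⟨?_, trivial⟩
        rcases hε with rfl | rfl
        · linear_combination -f00
        · have h5 : (2 : F) * g.1 1 0 = 0 := by linear_combination f10
          exact (mul_eq_zero.1 h5).resolve_left R.two
      · have h5 : t * g.1 1 0 = 0 := by linear_combination -e00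
        refine ⟨(mul_eq_zero.1 h5).resolve_left ht, ?_⟩
        linear_combination e01
    · exfalso
      have h5 : (2 : F) * g.1 1 0 = 0 := by linear_combination e10
      have h6 := (mul_eq_zero.1 h5).resolve_left R.two
      rw [h6] at e00 hdet
      have h7 : (2 : F) * g.1 0 0 = 0 := by linear_combination e00
      have h8 := (mul_eq_zero.1 h7).resolve_left R.two
      rw [h8] at hdet
      exact hdet (by ring)
  have hc := (h2 0).1
  have had : g.1 0 0 = g.1 1 1 := by
    have := (h2 1).2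
    rw [map_one, mul_one, one_mul] at this
    exact this
  have ha : g.1 0 0 ≠ 0 := by
    intro h
    rw [hc, h] at hdet
    exact hdet (by ring)
  have hσ1 : σ = 1 := by
    ext t
    have h3 := (h2 t).2
    rw [← had] at h3
    have h4 : g.1 0 0 * (σ t - t) = 0 := by linear_combination h3
    exact sub_eq_zero.1 ((mul_eq_zero.1 h4).resolve_left ha)
  refine ⟨g.1 0 1 / g.1 0 0, ?_⟩
  rw [hσ1, map_one, mul_one] at hg
  have h5 : R.gl ((Matrix.SpecialLinearGroup.toGL (up (g.1 0 1 / g.1 0 0)))⁻¹ * g) = 1 := by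
    rw [R.gl_eq_one_iff]
    refine ⟨g.1 0 0, ?_⟩
    have h6 : g.1 = (Matrix.SpecialLinearGroup.toGL (up (g.1 0 1 / g.1 0 0))).1 *
        (g.1 0 0 • (1 : Matrix (Fin 2) (Fin 2) F)) := by
      rw [Matrix.mul_smul, Matrix.mul_one]
      change g.1 = g.1 0 0 • !![1, g.1 0 1 / g.1 0 0; 0, 1]
      ext i j
      fin_cases i <;> fin_cases j <;> simp [hc, had]
      rw [← had]
      field_simp
    rw [Units.val_mul]
    refine (congrArg (fun m => (Matrix.SpecialLinearGroup.toGL (up (g.1 0 1 / g.1 0 0)))⁻¹.1 * m) h6).trans ?_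
    change (Matrix.SpecialLinearGroup.toGL (up (g.1 0 1 / g.1 0 0)))⁻¹.1 * (_ * _) = _
    rw [← Matrix.mul_assoc, ← Units.val_mul, inv_mul_cancel, Units.val_one, Matrix.one_mul]
  rw [map_mul, map_inv, inv_mul_eq_one] at h5
  rw [hg, ← h5]

/-- An abelian group of automorphisms containing the root group has order `q`. -/
theorem card_of_root (Q : Subgroup (MulAut L)) (hQ : ∀ x ∈ Q, ∀ y ∈ Q, x * y = y * x)
    (hU : ∀ t : F, MulAut.conj (R.π (up t)) ∈ Q) : Nat.card Q = Nat.card F := by
  have h1 : ∀ x ∈ Q, ∀ t : F, x (R.π (up t)) = R.π (up t) := by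
    intro x hx t
    apply R.conj_injective
    have h2 := hQ x hx _ (hU t)
    have h3 : MulAut.conj (x (R.π (up t))) = x * MulAut.conj (R.π (up t)) * x⁻¹ := by
      ext y
      simp [MulAut.conj_apply, MulAut.mul_apply]
    rw [h3, h2, mul_inv_cancel_right]
  have h2 : ∀ b : F, R.gl (Matrix.SpecialLinearGroup.toGL (up b)) ∈ Q := by
    intro b
    rw [← R.conj_π]
    exact hU b
  refine (Nat.card_congr (Equiv.ofBijective (fun b : F => (⟨_, h2 b⟩ : Q)) ⟨?_, ?_⟩)).symm
  · intro b c hbc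
    have h3 : R.gl (Matrix.SpecialLinearGroup.toGL (up b)) = R.gl (Matrix.SpecialLinearGroup.toGL (up c)) :=
      congrArg Subtype.val hbc
    rw [← R.conj_π, ← R.conj_π] at h3
    have h4 := R.conj_injective h3
    rw [R.π_eq_iff] at h4
    rcases h4 with h4 | h4
    · exact up_inj h4
    · exfalso
      have h5 := congrArg (fun y => ent y 0 0) h4
      have h6 : (1 : F) = -1 := h5
      exact R.two (by linear_combination h6)
  · rintro ⟨x, hx⟩
    obtain ⟨b, hb⟩ := eq_up R (h1 x hx)
    exact ⟨b, Subtype.ext hb.symm⟩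

include R in
/-- An elementary abelian `p`-group of automorphisms containing (the image of) a Sylow `p`-subgroup, `p` prime to `2 q`,
of square order, does not exist. -/
theorem false_of_cop {p a : ℕ} [hp : Fact p.Prime] (hp2 : p ≠ 2) [Fintype F] (hodd : Odd (Fintype.card F))
    (hpF : ¬ p ∣ Fintype.card F) (e : L ≃* Matrix.ProjectiveSpecialLinearGroup (Fin 2) F) [Finite L]
    (Q : Subgroup (MulAut L)) (hQp : IsPGroup p Q) (hexp : ∀ x ∈ Q, x ^ p = 1) (S : Sylow p L)
    (hS : ∀ s ∈ S, MulAut.conj s ∈ Q) (ha : Nat.card Q = a ^ 2) (ha1 : 1 < a) : False := by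
  -- the Sylow subgroup is cyclic
  have hSc : IsCyclic (S : Subgroup L) := by
    obtain ⟨r, hr⟩ := CharP.exists F
    have hrp : r.Prime := CharP.char_is_prime F r
    have : Fact r.Prime := ⟨hrp⟩
    have hne : p ≠ r := by
      rintro rfl
      apply hpF
      obtain ⟨n, hn⟩ := FiniteField.card F p
      rw [hn.2]
      exact dvd_pow_self p n.ne_zero
    obtain ⟨T, hT⟩ := Sylow.mapSurjective_surjective R.surj p S
    have hc := S0262.isCyclic_of_isPGroup r p hp2 hne (T : Subgroup (SpecialLinearGroup (Fin 2) F)) T.isPGroup'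
    rw [← hT]
    have h1 : ((T.mapSurjective R.surj : Sylow p L) : Subgroup L) =
        (T : Subgroup (SpecialLinearGroup (Fin 2) F)).map R.π := Sylow.coe_mapSurjective R.surj T
    have h2 : IsCyclic ((T : Subgroup (SpecialLinearGroup (Fin 2) F)).map R.π) :=
      isCyclic_of_surjective (R.π.subgroupMap (T : Subgroup (SpecialLinearGroup (Fin 2) F)))
        (R.π.subgroupMap_surjective _)
    rw [← h1] at h2
    exact h2
  have hSp : Nat.card (S : Subgroup L) ∣ p := by
    rw [← IsCyclic.exponent_eq_card]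
    apply Monoid.exponent_dvd_of_forall_pow_eq_one
    rintro ⟨s, hs⟩
    have h1 := hexp _ (hS s hs)
    rw [← map_pow] at h1
    apply Subtype.ext
    exact R.conj_injective (h1.trans (map_one _).symm)
  -- the inner elements of `Q`
  have hT : Q.comap (MulAut.conj : L →* MulAut L) = S := by
    have h1 : IsPGroup p (Q.comap (MulAut.conj : L →* MulAut L)) := hQp.comap_of_injective _ R.conj_injective
    exact (S.3 h1 hS)
  let φ : Q →* (F ≃+* F) := R.fld.comp Q.subtype
  have hkerS : Nat.card φ.ker ∣ Nat.card (S : Subgroup L) := by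
    have h1 : ∀ x : φ.ker, ∃ s ∈ S, MulAut.conj s = (x : Q).1 := by
      rintro ⟨⟨x, hx⟩, hk⟩
      have hk1 : R.fld x = 1 := hk
      have h2 : R.o1 x = 1 := by
        have h3 : (R.o1 x) ^ p = 1 := by rw [← map_pow, hexp x hx, map_one]
        rcases Int.units_eq_one_or (R.o1 x) with h4 | h4
        · exact h4
        · rw [h4, (hp.1.odd_of_ne_two hp2).neg_one_pow] at h3
          exact absurd h3 (by decide)
      obtain ⟨s, hs⟩ := R.mem_inn_iff.2 ⟨hk1, h2⟩
      refine ⟨s, ?_, hs⟩
      have h4 : s ∈ Q.comap (MulAut.conj : L →* MulAut L) := by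
        rw [Subgroup.mem_comap, hs]; exact hx
      rw [hT] at h4
      exact h4
    let j : (S : Subgroup L) →* MulAut L := (MulAut.conj : L →* MulAut L).comp (S : Subgroup L).subtype
    have hj : Function.Injective j := R.conj_injective.comp Subtype.val_injective
    let k : φ.ker →* MulAut L := Q.subtype.comp φ.ker.subtype
    have hk : Function.Injective k := Subtype.val_injective.comp Subtype.val_injective
    have h5 : k.range ≤ j.range := by
      rintro _ ⟨x, rfl⟩
      obtain ⟨s, hs, hs2⟩ := h1 x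
      exact ⟨⟨s, hs⟩, hs2⟩
    rw [Nat.card_congr (MonoidHom.ofInjective hj).toEquiv, Nat.card_congr (MonoidHom.ofInjective hk).toEquiv]
    exact Subgroup.card_dvd_of_le h5
  have hker : Nat.card φ.ker ∣ p := hkerS.trans hSp
  have hran : Nat.card φ.range ∣ p := by
    have hc : IsCyclic (F ≃+* F) := LieRecognition.FieldSemilinear.isCyclic_ringAut F
    rw [← IsCyclic.exponent_eq_card]
    apply Monoid.exponent_dvd_of_forall_pow_eq_one
    rintro ⟨_, ⟨x, hx⟩, rfl⟩
    apply Subtype.ext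
    change (R.fld x) ^ p = 1
    rw [← map_pow, hexp x hx, map_one]
  have hprod : Nat.card φ.ker * Nat.card φ.range = a ^ 2 := by
    rw [← ha, ← Subgroup.card_mul_index φ.ker, Subgroup.index_ker]
  have hpp := hp.1
  -- both have order `p`
  have hne : ∀ b : ℕ, b ∣ p → b ≠ a ^ 2 := by
    intro b hb h
    rcases (Nat.dvd_prime hpp).1 hb with h1 | h1
    · rw [h1] at h
      nlinarith
    · rw [h1] at h
      rw [h] at hpp
      exact Nat.Prime.not_prime_pow (le_refl 2) hpp
  have hk : Nat.card φ.ker = p := by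
    rcases (Nat.dvd_prime hpp).1 hker with h1 | h1
    · rw [h1, one_mul] at hprod
      exact absurd hprod (hne _ hran)
    · exact h1
  have hr : Nat.card φ.range = p := by
    rcases (Nat.dvd_prime hpp).1 hran with h1 | h1
    · rw [h1, mul_one] at hprod
      exact absurd hprod (hne _ hker)
    · exact h1
  have hSp2 : Nat.card (S : Subgroup L) = p := by
    rw [hk] at hkerS
    exact Nat.dvd_antisymm hSp hkerS
  -- a field automorphism of order `p`
  obtain ⟨r, hr⟩ : ∃ r : ℕ, Fintype.card F = r ^ p := by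
    have h1 : Nontrivial φ.range := by
      have : Finite φ.range := Nat.finite_of_card_ne_zero (by rw [hr]; exact hpp.ne_zero)
      rw [← Finite.one_lt_card_iff_nontrivial, hr]
      exact hpp.one_lt
    obtain ⟨⟨σ, x, hx⟩, hσ⟩ := exists_ne (1 : φ.range)
    have h2 : orderOf σ = p := by
      refine orderOf_eq_prime ?_ ?_
      · rw [← hx]
        change (R.fld x.1) ^ p = 1
        rw [← map_pow, hexp x.1 x.2, map_one]
      · intro h
        exact hσ (Subtype.ext h)
    obtain ⟨r, hr⟩ := card_fixed σ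
    rw [h2, Nat.card_eq_fintype_card] at hr
    exact ⟨r, hr⟩
  have hL : 2 * Nat.card L = Fintype.card F * (Fintype.card F ^ 2 - 1) := by
    rw [Nat.card_congr e.toEquiv]
    exact card_psl_two hodd
  have h1 : p ∣ Nat.card L := by
    rw [← hSp2]
    exact Subgroup.card_subgroup_dvd_card _
  have h2 : p ∣ Fintype.card F ^ 2 - 1 := by
    have h3 : p ∣ Fintype.card F * (Fintype.card F ^ 2 - 1) := by
      rw [← hL]
      exact h1.mul_left 2
    exact (hpp.dvd_mul.1 h3).resolve_left hpF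
  rw [hr] at h2
  have h3 : p ^ 2 ∣ Nat.card L := by
    have h4 : p ^ 2 ∣ 2 * Nat.card L := by
      rw [hL, hr]
      exact (sq_dvd hpp h2).mul_left _
    refine Nat.Coprime.dvd_of_dvd_mul_left ?_ h4
    exact (Nat.Coprime.pow_left 2 ((Nat.coprime_primes hpp Nat.prime_two).2 hp2))
  have h4 : p ^ 2 ∣ p := by
    conv_rhs => rw [← hSp2, Sylow.card_eq_multiplicity]
    exact pow_dvd_pow p ((hpp.pow_dvd_iff_le_factorization Nat.card_pos.ne').1 h3)
  have h5 := Nat.le_of_dvd hpp.pos h4
  have := hpp.two_le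
  nlinarith

end

/-- **ODD-7 for `PΓL₂(q)`** -/
theorem false_l2 {H : Type*} [Group H] [Finite H] {p a : ℕ} [Fact p.Prime] (hp : p ≠ 2) (P : Sylow p H)
    (hcomm : ∀ u ∈ P, ∀ v ∈ P, u * v = v * u) (hexp : ∀ u ∈ P, u ^ p = 1) (hc : Nat.card P = a ^ 2)
    (ha : a % 8 = 1 ∨ a % 8 = 7) (ha1 : 1 < a) {F : Type*} [Field F] [Fintype F]
    (hF : Fintype.card F % 16 = 7 ∨ Fintype.card F % 16 = 9)
    (f : H →* MulAut (Matrix.ProjectiveSpecialLinearGroup (Fin 2) F)) (hinn : ∀ g, MulAut.conj g ∈ f.range)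
    (hker : ∀ u ∈ P, f u = 1 → u = 1) : False := by
  have hodd : Odd (Fintype.card F) := by rw [Nat.odd_iff]; omega
  let L := Matrix.ProjectiveSpecialLinearGroup (Fin 2) F
  have : Finite L := inferInstance
  let R : L2Aut.Rep F L := L2Aut.Rep.ofEquiv (L2Aut.two_ne_zero_of_odd hodd) (MulEquiv.refl _)
  -- a general conjugate of the Sylow subgroup
  have key : ∀ S : Subgroup L, IsPGroup p S → ∃ Q : Subgroup (MulAut L), IsPGroup p Q ∧ (∀ x ∈ Q, x ^ p = 1) ∧
      (∀ x ∈ Q, ∀ y ∈ Q, x * y = y * x) ∧ Nat.card Q = a ^ 2 ∧ ∀ s ∈ S, MulAut.conj s ∈ Q := by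
    intro S hS
    obtain ⟨h, hh⟩ := exists_conj P f (S.map MulAut.conj) (hS.map _) (by
      rintro _ ⟨s, -, rfl⟩
      exact hinn s)
    refine ⟨((P : Subgroup H).map (MulAut.conj h).toMonoidHom).map f, (P.isPGroup'.map _).map _, ?_, ?_, ?_,
      fun s hs => hh ⟨s, hs, rfl⟩⟩
    · rintro _ ⟨_, ⟨u, hu, rfl⟩, rfl⟩
      rw [← map_pow, ← map_pow, hexp u hu, map_one, map_one]
    · rintro _ ⟨_, ⟨u, hu, rfl⟩, rfl⟩ _ ⟨_, ⟨v, hv, rfl⟩, rfl⟩
      rw [← map_mul, ← map_mul, hcomm u hu v hv, map_mul, map_mul]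
    · rw [← hc, Subgroup.map_map]
      refine (Nat.card_congr (Equiv.ofBijective
        (((f.comp (MulAut.conj h).toMonoidHom).subgroupMap (P : Subgroup H))) ⟨?_,
          MonoidHom.subgroupMap_surjective _ _⟩)).symm
      rw [injective_iff_map_eq_one]
      rintro ⟨u, hu⟩ h1
      have h2 : f (h * u * h⁻¹) = 1 := congrArg Subtype.val h1
      have h3 : f u = 1 := by
        rw [map_mul, map_mul, map_inv, mul_inv_eq_one] at h2
        exact mul_eq_left.1 h2
      exact Subtype.ext (hker u hu h3)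
  by_cases hpF : p ∣ Fintype.card F
  · obtain ⟨Q, -, -, hQ, hcard, hU⟩ := key
      ((Multiplicative.ofAdd (α := F) |> fun _ => (⊤ : Subgroup (Multiplicative F))).map
        ({ toFun := fun t => R.π (up t.toAdd), map_one' := by
             change R.π (up 0) = 1
             rw [up_zero, map_one]
           map_mul' := fun s t => by
             change R.π (up (s.toAdd + t.toAdd)) = _
             rw [← up_mul, map_mul] } : Multiplicative F →* L)) (by
        have hpp : p.Prime := Fact.out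
        have hch : CharP F p := by
          obtain ⟨r, hr⟩ := CharP.exists F
          have hrp : r.Prime := CharP.char_is_prime F r
          have : Fact r.Prime := ⟨hrp⟩
          obtain ⟨n, hn⟩ := FiniteField.card F r
          rw [hn.2] at hpF
          have := (Nat.prime_dvd_prime_iff_eq hpp hrp).1 (hpp.dvd_of_dvd_pow hpF)
          rwa [this]
        apply IsPGroup.map
        rintro ⟨x, -⟩
        refine ⟨1, Subtype.ext ?_⟩
        change p ^ 1 • x.toAdd = 0
        rw [pow_one, nsmul_eq_mul, CharP.cast_eq_zero, zero_mul])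
    have h1 := card_of_root R Q hQ (fun t => hU _ ⟨Multiplicative.ofAdd t, trivial, rfl⟩)
    rw [hcard, Nat.card_eq_fintype_card] at h1
    rw [← h1] at hF
    have h2 : a ^ 2 % 16 = 1 := by
      have h3 : a % 16 = 1 ∨ a % 16 = 7 ∨ a % 16 = 9 ∨ a % 16 = 15 := by omega
      rw [Nat.pow_mod]
      rcases h3 with h3 | h3 | h3 | h3 <;> rw [h3]
    omega
  · obtain ⟨S⟩ : Nonempty (Sylow p L) := inferInstance
    obtain ⟨Q, hQp, hexp, -, hcard, hS⟩ := key S S.isPGroup'
    exact false_of_cop R hp hodd hpF (MulEquiv.refl _) Q hQp hexp S hS hcard ha1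

/-- **ODD-7 for `A₇`** -/
theorem false_a7 {H : Type*} [Group H] [Finite H] {p a : ℕ} [Fact p.Prime] (hp : p ≠ 2) (P : Sylow p H)
    (hcomm : ∀ u ∈ P, ∀ v ∈ P, u * v = v * u) (hexp : ∀ u ∈ P, u ^ p = 1) (hc : Nat.card P = a ^ 2)
    (ha : a % 8 = 1 ∨ a % 8 = 7) (ha1 : 1 < a)
    (f : H →* MulAut (alternatingGroup (Fin 7))) (hinn : ∀ g, MulAut.conj g ∈ f.range)
    (hker : ∀ u ∈ P, f u = 1 → u = 1) : False := by
  obtain ⟨ψ, hψ⟩ := StandardComponent.AltAut.exists_autHom 7 le_rfl
  have hinj : Function.Injective ψ := by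
    intro x y hab
    ext z : 1
    apply Subtype.ext
    rw [hψ, hψ, hab]
  have h2 : Nat.card (Equiv.Perm (Fin 7)) = 5040 := by
    rw [Nat.card_perm, Nat.card_eq_fintype_card, Fintype.card_fin]
    rfl
  let g : (P : Subgroup H) →* Equiv.Perm (Fin 7) := (ψ.comp f).comp (P : Subgroup H).subtype
  have hg : Function.Injective g := by
    rw [injective_iff_map_eq_one]
    rintro ⟨u, hu⟩ h1
    have h3 : ψ (f u) = 1 := h1
    have h4 : f u = 1 := hinj (by rw [h3, map_one])
    exact Subtype.ext (hker u hu h4)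
  have h1 := Subgroup.card_dvd_of_injective g hg
  rw [h2, hc] at h1
  have h3 : a ≤ 70 := by
    have := Nat.le_of_dvd (by norm_num) h1
    nlinarith
  interval_cases a <;> revert h1 ha <;> decide

end Cfsg.Agent.H51.OddSeven
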